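import Cfsg.Agent.Lib.StrongSec.NormalCtl
import Cfsg.Agent.Lib.StrongSec.Basic

/-!
# Local-to-global for a conjugacy functor with a central functor

Strong fusion: `W` with `V` controls strong fusion in `G` if it does so in `N(H)` for all
`Z(P) ≤ H ≤ P`.
-/

set_option autoImplicit false
set_option linter.unusedSectionVars false

namespace Cfsg.Agent.Lib.StrongSec.PairCtl

open Cfsg Cfsg.Agent.Lib.PLocal.Alperin Cfsg.Agent.Lib.ConjFam.Basic
  Cfsg.Agent.Lib.ConjFam.WellPlaced Cfsg.Agent.Lib.StrongSec.MinFail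
  Cfsg.Agent.Lib.TransferCtl.Reduce Cfsg.Agent.Lib.StrongSec.NormalCtl
  Cfsg.Agent.Lib.ConjFam.StrongCtl Cfsg.Agent.Lib.StrongSec.Basic

local notation "N(" T ")" => Subgroup.normalizer (SetLike.coe (T : Subgroup _))
local notation "C(" T ")" => Subgroup.centralizer (SetLike.coe (T : Subgroup _))

variable {G : Type*} [Group G]

/-- From a list of steps to chain control. -/
lemma cc_of_list {Q₀ : G → Prop} (hQ : ∀ y, Q₀ y → Q₀ y⁻¹) {Z X : Set G} {n : ℕ} (b : Fin n → G)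
    (hb : ∀ i, Q₀ (b i))
    (hk : ∀ k : ℕ, k ≤ n → lc (((List.ofFn b).take k).prod)⁻¹ X ⊆ Z) :
    CC Q₀ Z X ((List.ofFn b).prod)⁻¹ := by
  have key : ∀ k : ℕ, k ≤ n → CC Q₀ Z X ((List.ofFn b).take k).prod⁻¹ := by
    intro k
    induction k with
    | zero =>
      intro _
      simpa using CC.refl X
    | succ k ih =>
      intro hkn
      have hlt : k < (List.ofFn b).length := by simpa using hkn
      have h1 := ih (by omega)
      refine Relation.ReflTransGen.tail h1 ⟨hk k (by omega), hk (k + 1) hkn, Or.inl ⟨(b ⟨k, by omega⟩)⁻¹,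
        hQ _ (hb _), ?_⟩⟩
      rw [List.prod_take_succ _ _ hlt, List.getElem_ofFn, mul_inv_rev]
  have h2 := key n le_rfl
  have h3 : (List.ofFn b).take n = List.ofFn b := List.take_of_length_le (by simp)
  rwa [h3] at h2

/-- From chain control to a list of steps. -/
lemma exists_list_of_cc {Q₀ : G → Prop} (hQ : ∀ y, Q₀ y → Q₀ y⁻¹) {Z X : Set G} (hX : X ⊆ Z) {g : G}
    (h : CC Q₀ Z X g) :
    ∃ (n : ℕ) (b : Fin n → G), (∀ i, Q₀ (b i)) ∧
      (∀ x ∈ X, ((List.ofFn b).prod)⁻¹ * x * (List.ofFn b).prod = g * x * g⁻¹) ∧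
      ∀ k : ℕ, k ≤ n → (fun x => (((List.ofFn b).take k).prod)⁻¹ * x * ((List.ofFn b).take k).prod) '' X ⊆ Z := by
  obtain ⟨n, c, h0, hs, hc, hl⟩ := h.to_fin hX
  let b : Fin n → G := fun i => (c i.succ * (c i.castSucc)⁻¹)⁻¹
  have hprod : ∀ k : ℕ, ∀ hk : k ≤ n, ((List.ofFn b).take k).prod = (c ⟨k, by omega⟩)⁻¹ := by
    intro k
    induction k with
    | zero =>
      intro _
      have e : (⟨0, by omega⟩ : Fin (n + 1)) = 0 := rfl
      simp [e, h0]
    | succ k ih =>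
      intro hkn
      have hlt : k < (List.ofFn b).length := by simpa using hkn
      rw [List.prod_take_succ _ _ hlt, List.getElem_ofFn, ih (by omega)]
      have e1 : (⟨k, by omega⟩ : Fin n).succ = (⟨k + 1, by omega⟩ : Fin (n + 1)) := rfl
      have e2 : (⟨k, by omega⟩ : Fin n).castSucc = (⟨k, by omega⟩ : Fin (n + 1)) := rfl
      show (c ⟨k, _⟩)⁻¹ * (c (⟨k, by omega⟩ : Fin n).succ * (c (⟨k, by omega⟩ : Fin n).castSucc)⁻¹)⁻¹ = _
      rw [e1, e2]
      group
  refine ⟨n, b, fun i => hQ _ (hs i), ?_, ?_⟩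
  · intro x hx
    have h3 : (List.ofFn b).take n = List.ofFn b := List.take_of_length_le (by simp)
    have h4 := hprod n le_rfl
    rw [h3] at h4
    rw [h4, inv_inv, ← hl x hx]
    rfl
  · intro k hk
    rw [hprod k hk]
    rintro _ ⟨x, hx, rfl⟩
    simp only [inv_inv]
    exact hc ⟨k, by omega⟩ (mem_lc_of_mem hx)

/-- Chain control lifts along step-wise control. -/
lemma CC.lift_steps {Q₁ Q₂ : G → Prop} {Z₁ Z₂ B : Set G} {g : G} (h : CC Q₁ Z₁ B g) (hZ : Z₁ ⊆ Z₂)
    (hB : B ⊆ Z₁) (hstep : ∀ y, Q₁ y → ∀ B' : Set G, B' ⊆ Z₁ → lc y B' ⊆ Z₁ → CC Q₂ Z₂ B' y) :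
    CC Q₂ Z₂ B g := by
  induction h with
  | refl => exact CC.refl B
  | @tail u v _ hs ih =>
    obtain ⟨h1, h2, h3⟩ := hs
    rcases h3 with ⟨y, hy, rfl⟩ | h3
    · have h4 := hstep y hy _ h1 (by rw [lc_lc]; exact h2)
      exact ih.trans h4
    · exact ih.congr (hB.trans hZ) h3 (h1.trans hZ)

section Main

variable [Finite G] {p : ℕ} [Fact p.Prime]

/-- Steps in `N(H)` with respect to a `p`-subgroup `R`. -/
def StpH (W V : Subgroup G → Subgroup G) (H R : Subgroup G) (y : G) : Prop :=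
  y ∈ N(H) ∧ (y ∈ N(W R) ∨ y ∈ C(V R))

lemma StpH_inv (W V : Subgroup G → Subgroup G) (H R : Subgroup G) (y : G) (h : StpH W V H R y) :
    StpH W V H R y⁻¹ := by
  obtain ⟨h1, h2⟩ := h
  refine ⟨Subgroup.inv_mem _ h1, ?_⟩
  rcases h2 with h2 | h2
  · exact Or.inl (Subgroup.inv_mem _ h2)
  · exact Or.inr (Subgroup.inv_mem _ h2)

/-- Steps in the whole group. -/
def StpS (W V : Subgroup G → Subgroup G) (R : Subgroup G) (y : G) : Prop :=
  y ∈ N(W R) ∨ y ∈ C(V R)

lemma StpS_inv (W V : Subgroup G → Subgroup G) (R : Subgroup G) (y : G) (h : StpS W V R y) :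
    StpS W V R y⁻¹ := by
  rcases h with h2 | h2
  · exact Or.inl (Subgroup.inv_mem _ h2)
  · exact Or.inr (Subgroup.inv_mem _ h2)

lemma cj_centralizer (g : G) (T : Subgroup G) : cj g C(T) = C(cj g T) := by
  ext x
  rw [mem_cj, Subgroup.mem_centralizer_iff, Subgroup.mem_centralizer_iff]
  constructor
  · rintro h _ ⟨t, ht, rfl⟩
    have h1 := h t ht
    show g * t * g⁻¹ * x = x * (g * t * g⁻¹)
    calc g * t * g⁻¹ * x = g * (t * (g⁻¹ * x * g)) * g⁻¹ := by group
      _ = g * ((g⁻¹ * x * g) * t) * g⁻¹ := by rw [h1]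
      _ = _ := by group
  · intro h t ht
    have h1 := h (g * t * g⁻¹) ⟨t, ht, rfl⟩
    calc t * (g⁻¹ * x * g) = g⁻¹ * ((g * t * g⁻¹) * x) * g := by group
      _ = g⁻¹ * (x * (g * t * g⁻¹)) * g := by rw [h1]
      _ = _ := by group

/-- The step control in the normalizer of a conjugate of a subgroup with a given local control. -/
theorem ctl_of_local {W V : Subgroup G → Subgroup G} (hW : IsConjugacyFunctor p W)
    (hV : IsConjugacyFunctor p V) (S : Sylow p G) {T H : Subgroup G} {g : G} (hTH : cj g T = H)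
    (hfn : ¬ p ∣ ((S : Subgroup G) ⊓ N(T)).relIndex N(T))
    (hloc : ∃ Q : Subgroup G, Q ≤ N(H) ∧ IsPGroup p ↥Q ∧ ¬ p ∣ (Q).relIndex N(H) ∧
      ∀ (X : Set G) (a : G), X ⊆ Q → a ∈ N(H) → (fun x => a⁻¹ * x * a) '' X ⊆ Q →
        ∃ c ∈ N(H) ⊓ Subgroup.centralizer X, ∃ (n : ℕ) (b : Fin n → G),
          (∀ i, b i ∈ N(H) ⊓ N(W Q) ∨ b i ∈ N(H) ⊓ C(V Q)) ∧ a = c * (List.ofFn b).prod ∧
          ∀ k : ℕ, k ≤ n → (fun x => (((List.ofFn b).take k).prod)⁻¹ * x * ((List.ofFn b).take k).prod) ''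
            ((fun x => c⁻¹ * x * c) '' X) ⊆ Q)
    (y : G) (hy : y ∈ N(T)) (B : Set G) (hB : B ⊆ ((S : Subgroup G) ⊓ N(T) : Subgroup G))
    (hyB : lc y B ⊆ ((S : Subgroup G) ⊓ N(T) : Subgroup G)) :
    CC (StpH W V T ((S : Subgroup G) ⊓ N(T))) (((S : Subgroup G) ⊓ N(T) : Subgroup G) : Set G) B y := by
  classical
  obtain ⟨Q₀, hQ₀N, hQ₀p, hQ₀s, hctl⟩ := hloc
  set R : Subgroup G := (S : Subgroup G) ⊓ N(T) with hR
  have hRp : IsPGroup p R := S.isPGroup'.to_le inf_le_left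
  have hNH : cj g N(T) = N(H) := by
    rw [← hTH]
    exact cj_normalizer g T
  have hRN : cj g R ≤ N(H) := by
    rw [← hNH]
    exact cj_mono g inf_le_right
  obtain ⟨x, hx, hxR⟩ : ∃ x ∈ N(H), cj x (cj g R) ≤ Q₀ :=
    exists_conj_le_of_sylowIn _ _ _ hQ₀N hQ₀p hQ₀s hRN (isPGroup_cj hRp g)
  have hxH : cj x H = H := mem_normalizer_iff_cj.1 hx
  have hxN : cj x N(H) = N(H) := by
    have := cj_normalizer x H
    rw [hxH] at this
    exact this
  set h : G := x * g with hh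
  have hcjT : cj h T = H := by
    rw [hh, ← cj_cj, hTH, hxH]
  have hcjN : cj h N(T) = N(H) := by
    rw [hh, ← cj_cj, hNH, hxN]
  have hRs : ¬ p ∣ (cj h R).relIndex N(H) := by
    rw [← hcjN, Subgroup.relIndex_map_map_of_injective _ _ (MulEquiv.injective _)]
    exact hfn
  have hcjR : cj h R = Q₀ := by
    have hle : cj h R ≤ Q₀ := by
      rw [hh, ← cj_cj]
      exact hxR
    exact eq_of_not_dvd_relIndex hle hQ₀N hQ₀p hRs
  have hyh : h * y * h⁻¹ ∈ N(H) := by
    rw [← hcjN]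
    exact conj_mem_cj hy
  have hX : lc h B ⊆ Q₀ := by
    rintro _ ⟨a, ha, rfl⟩
    rw [← hcjR]
    exact conj_mem_cj (hB ha)
  have hXa : (fun x => (h * y * h⁻¹)⁻¹⁻¹ * x * (h * y * h⁻¹)⁻¹) '' lc h B ⊆ Q₀ := by
    rintro _ ⟨_, ⟨a, ha, rfl⟩, rfl⟩
    rw [← hcjR]
    have e : (h * y * h⁻¹)⁻¹⁻¹ * (h * a * h⁻¹) * (h * y * h⁻¹)⁻¹ = h * (y * a * y⁻¹) * h⁻¹ := by group
    simp only
    rw [e]
    exact conj_mem_cj (hyB (mem_lc_of_mem ha))
  obtain ⟨c, hc, n, b, hb, hab, hk⟩ := hctl (lc h B) (h * y * h⁻¹)⁻¹ hX (Subgroup.inv_mem _ hyh) hXa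
  have hcC := Subgroup.mem_centralizer_iff.1 (Subgroup.mem_inf.1 hc).2
  have hcX : (fun x => c⁻¹ * x * c) '' lc h B = lc h B := by
    ext z
    constructor
    · rintro ⟨a, ha, rfl⟩
      have := hcC a ha
      have e : c⁻¹ * a * c = a := by
        rw [mul_assoc, this]
        group
      simp only
      rw [e]
      exact ha
    · intro hz
      refine ⟨z, hz, ?_⟩
      have := hcC z hz
      simp only
      rw [mul_assoc, this]
      group
  rw [hcX] at hk
  have hb' : ∀ i, StpH W V H Q₀ (b i) := by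
    intro i
    rcases hb i with h1 | h1
    · exact ⟨(Subgroup.mem_inf.1 h1).1, Or.inl (Subgroup.mem_inf.1 h1).2⟩
    · exact ⟨(Subgroup.mem_inf.1 h1).1, Or.inr (Subgroup.mem_inf.1 h1).2⟩
  have h1 : CC (StpH W V H Q₀) (Q₀ : Set G) (lc h B) ((List.ofFn b).prod)⁻¹ := by
    refine cc_of_list (StpH_inv W V H Q₀) b hb' ?_
    intro k hkn
    rintro _ ⟨a, ha, rfl⟩
    have := hk k hkn ⟨a, ha, rfl⟩
    simpa using this
  have hprodeq : ((List.ofFn b).prod)⁻¹ = (h * y * h⁻¹) * c := by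
    have e : (List.ofFn b).prod = c⁻¹ * (h * y * h⁻¹)⁻¹ := by
      rw [hab]
      group
    rw [e]
    group
  have h2 : CC (StpH W V H Q₀) (Q₀ : Set G) (lc h B) (h * y * h⁻¹) := by
    refine h1.congr hX ?_ ?_
    · intro a ha
      have := hcC a ha
      rw [hprodeq]
      calc h * y * h⁻¹ * c * a * (h * y * h⁻¹ * c)⁻¹ = (h * y * h⁻¹) * (c * a) * c⁻¹ * (h * y * h⁻¹)⁻¹ := by group
        _ = (h * y * h⁻¹) * (a * c) * c⁻¹ * (h * y * h⁻¹)⁻¹ := by rw [← this]
        _ = _ := by group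
    · have h5 := hk n le_rfl
      have h3 : (List.ofFn b).take n = List.ofFn b := List.take_of_length_le (by simp)
      rw [h3] at h5
      rintro _ ⟨a, ha, rfl⟩
      refine h5 ⟨a, ha, ?_⟩
      simp
  -- conjugate back
  have hφ : ∀ z : G, (MulAut.conj h⁻¹).toMonoidHom z = h⁻¹ * z * h := fun z => by simp
  have h3 := CC.map (MulAut.conj h⁻¹).toMonoidHom (Q' := StpH W V T R) (S' := (R : Set G)) ?_ ?_ h2
  · have e1 : (MulAut.conj h⁻¹).toMonoidHom '' (lc h B) = B := by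
      ext z
      constructor
      · rintro ⟨_, ⟨a, ha, rfl⟩, rfl⟩
        have : (MulAut.conj h⁻¹).toMonoidHom (h * a * h⁻¹) = a := by
          rw [hφ]
          group
        rw [this]
        exact ha
      · intro hz
        refine ⟨h * z * h⁻¹, mem_lc_of_mem hz, ?_⟩
        rw [hφ]
        group
    have e2 : (MulAut.conj h⁻¹).toMonoidHom (h * y * h⁻¹) = y := by
      rw [hφ]
      group
    rwa [e1, e2] at h3
  · rintro y' ⟨h4, h5⟩
    have hWQ : W Q₀ = cj h (W R) := by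
      rw [← hcjR]
      exact (hW R hRp).2.2 h
    have hVQ : V Q₀ = cj h (V R) := by
      rw [← hcjR]
      exact (hV R hRp).2.2 h
    rw [hφ]
    refine ⟨?_, ?_⟩
    · rw [← hcjT, ← cj_normalizer] at h4
      exact mem_cj.1 h4
    · rcases h5 with h5 | h5
      · left
        rw [hWQ, ← cj_normalizer] at h5
        exact mem_cj.1 h5
      · right
        rw [hVQ, ← cj_centralizer] at h5
        exact mem_cj.1 h5
  · rintro _ ⟨z, hz, rfl⟩
    rw [hφ]
    have hz' : z ∈ cj h R := by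
      rw [hcjR]
      exact hz
    exact mem_cj.1 hz'

lemma zs_ne_bot (S : Sylow p G) (hS : (S : Subgroup G) ≠ ⊥) : (S : Subgroup G) ⊓ C((S : Subgroup G)) ≠ ⊥ := by
  have : Nontrivial ↥(S : Subgroup G) := (Subgroup.nontrivial_iff_ne_bot _).2 hS
  have h1 : Nontrivial (Subgroup.center ↥(S : Subgroup G)) := S.isPGroup'.center_nontrivial
  obtain ⟨⟨x, hx⟩, hx1⟩ := exists_ne (1 : Subgroup.center ↥(S : Subgroup G))
  intro hb
  have h2 : (x : G) ∈ (S : Subgroup G) ⊓ C((S : Subgroup G)) := by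
    refine Subgroup.mem_inf.2 ⟨x.2, ?_⟩
    rw [Subgroup.mem_centralizer_iff]
    intro y hy
    have := (Subgroup.mem_center_iff.1 hx) ⟨y, hy⟩
    exact congrArg Subtype.val this
  rw [hb, Subgroup.mem_bot] at h2
  apply hx1
  apply Subtype.ext
  exact Subtype.ext h2

/-- The local-to-global theorem in the form of chains. -/
theorem cc_of_local {W V : Subgroup G → Subgroup G} (hW : IsConjugacyFunctor p W)
    (hV : IsConjugacyFunctor p V) (S : Sylow p G) (hSne : (S : Subgroup G) ≠ ⊥)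
    (hWZ : ∀ H : Subgroup G, IsPGroup p ↥H → H ⊓ C(H) ≤ W H)
    (hVmono : ∀ H K : Subgroup G, IsPGroup p ↥H → IsPGroup p ↥K → H ≠ ⊥ → K ≠ ⊥ →
      H ⊓ C(H) ≤ K ⊓ C(K) → V H ≤ V K)
    (hlocT : ∀ T : Subgroup G, T ≤ (S : Subgroup G) → ∀ g : G, (S : Subgroup G) ⊓ C((S : Subgroup G)) ≤ cj g T →
      cj g T ≤ (S : Subgroup G) → ¬ p ∣ ((S : Subgroup G) ⊓ N(T)).relIndex N(T) →
      ∀ y ∈ N(T), ∀ B : Set G, B ⊆ ((S : Subgroup G) ⊓ N(T) : Subgroup G) →
      lc y B ⊆ ((S : Subgroup G) ⊓ N(T) : Subgroup G) →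
      CC (StpH W V T ((S : Subgroup G) ⊓ N(T))) (((S : Subgroup G) ⊓ N(T) : Subgroup G) : Set G) B y) :
    ∀ Q : Subgroup G, Q ≤ (S : Subgroup G) → ∀ g : G, cj g Q ≤ (S : Subgroup G) →
      CC (StpS W V (S : Subgroup G)) ((S : Subgroup G) : Set G) (Q : Set G) g := by
  classical
  have hSp : IsPGroup p (S : Subgroup G) := S.isPGroup'
  set Zs : Subgroup G := (S : Subgroup G) ⊓ C((S : Subgroup G)) with hZs
  have hZne : Zs ≠ ⊥ := zs_ne_bot S hSne
  have hcS : ∀ B : Subgroup G, B ≤ (S : Subgroup G) → Nat.card B ≤ Nat.card (S : Subgroup G) :=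
    fun B hB => Subgroup.card_le_of_le hB
  let CS : Set G → G → Prop := fun B g => CC (StpS W V (S : Subgroup G)) ((S : Subgroup G) : Set G) B g
  let StepC : ℕ → Prop := fun n => ∀ T : Subgroup G, T ≤ (S : Subgroup G) → ∀ g : G, Zs ≤ cj g T →
    cj g T ≤ (S : Subgroup G) → ¬ p ∣ ((S : Subgroup G) ⊓ N(T)).relIndex N(T) →
    n ≤ Nat.card ((S : Subgroup G) ⊓ N(T) : Subgroup G) →
    ∀ y ∈ N(T), ∀ B : Set G, B ⊆ ((S : Subgroup G) ⊓ N(T) : Subgroup G) →
      lc y B ⊆ ((S : Subgroup G) ⊓ N(T) : Subgroup G) → CS B y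
  let StepD : ℕ → Prop := fun n => ∀ Q : Subgroup G, Q ≤ (S : Subgroup G) → n ≤ Nat.card Q →
    ∀ g : G, cj g Q ≤ (S : Subgroup G) → CS (Q : Set G) g
  have hZN : ∀ T : Subgroup G, T ≤ (S : Subgroup G) → Zs ≤ (S : Subgroup G) ⊓ N(T) := by
    intro T hT x hx
    have hx' := Subgroup.mem_inf.1 hx
    refine Subgroup.mem_inf.2 ⟨hx'.1, cent_le_norm T ?_⟩
    rw [Subgroup.mem_centralizer_iff]
    intro t ht
    exact Subgroup.mem_centralizer_iff.1 hx'.2 t (hT ht)
  have stepC : ∀ n, StepC (n + 1) → StepD (n + 1) → StepC n := by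
    intro n hC hD T hTS g hg1 hg2 hfn hn y hy B hB hyB
    set R : Subgroup G := (S : Subgroup G) ⊓ N(T) with hR
    have hRS : R ≤ (S : Subgroup G) := inf_le_left
    have hRp : IsPGroup p R := hSp.to_le hRS
    have hZR : Zs ≤ R ⊓ C(R) := by
      refine le_inf (hZN T hTS) ?_
      intro x hx
      rw [Subgroup.mem_centralizer_iff]
      intro t ht
      exact Subgroup.mem_centralizer_iff.1 (Subgroup.mem_inf.1 hx).2 t (hRS ht)
    have hR0 : R ≠ ⊥ := by
      intro h0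
      apply hZne
      rw [eq_bot_iff]
      exact (hZR.trans inf_le_left).trans (le_of_eq h0)
    refine CC.lift_steps (hlocT T hTS g hg1 hg2 hfn y hy B hB hyB) (fun x hx => hRS hx) hB ?_
    rintro y' ⟨hy'T, hy'⟩ B' hB' hyB'
    rcases hy' with hy' | hy'
    · rcases eq_or_lt_of_le hRS with hRe | hRlt
      · have hy₂ : y' ∈ N(W R) := hy'
        rw [hRe] at hy₂
        exact CC.single (Or.inl hy₂) (fun x hx => hRS (hB' hx)) (fun x hx => hRS (hyB' hx))
      · have hUR : W R ≤ R := (hW R hRp).1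
        have hUS : W R ≤ (S : Subgroup G) := hUR.trans hRS
        have hZU : Zs ≤ W R := hZR.trans (hWZ R hRp)
        have hRQ : R < (S : Subgroup G) ⊓ N(W R) :=
          (lt_inf_normalizer (p := p) hSp hRlt).trans_le
            (inf_le_inf_left _ (inf_normalizer_le_normalizer_functor hW hRp))
        obtain ⟨z, hz1, hz3, hz2⟩ := exists_fully_normalized S (W R) hUS
        have hcQ : n + 1 ≤ Nat.card ((S : Subgroup G) ⊓ N(W R) : Subgroup G) := by
          have := card_lt_of_lt hRQ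
          omega
        have hDz := hD _ inf_le_left hcQ z hz2
        have hzQ : cj z ((S : Subgroup G) ⊓ N(W R)) ≤ (S : Subgroup G) ⊓ N(cj z (W R)) := by
          refine le_inf hz2 ?_
          rw [← cj_normalizer]
          exact cj_mono _ inf_le_right
        have hy'' : z * y' * z⁻¹ ∈ N(cj z (W R)) := by
          rw [← cj_normalizer]
          exact conj_mem_cj hy'
        have hlc : ∀ X : Set G, X ⊆ (R : Set G) →
            lc z X ⊆ ((S : Subgroup G) ⊓ N(cj z (W R)) : Subgroup G) := by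
          intro X hX
          rintro _ ⟨a, ha, rfl⟩
          exact hzQ (conj_mem_cj (hRQ.le (hX ha)))
        have hC' := hC (cj z (W R)) hz1 z⁻¹ (by
            rw [cj_cj, inv_mul_cancel, cj_one]
            exact hZU) (by
            rw [cj_cj, inv_mul_cancel, cj_one]
            exact hUS) hz3 (by
            have h1 := Subgroup.card_le_of_le hzQ
            rw [card_cj] at h1
            omega) (z * y' * z⁻¹) hy'' (lc z B') (hlc B' hB') (by
            rw [lc_lc]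
            have : z * y' * z⁻¹ * z = z * y' := by group
            rw [this, ← lc_lc]
            exact hlc _ hyB')
        have h1 : CS B' z := hDz.mono (fun x hx => hRQ.le (hB' hx))
        have h2 : CS B' (z * y' * z⁻¹ * z) := h1.trans hC'
        have h3 : CS (lc (z * y' * z⁻¹ * z) B') z⁻¹ := by
          have : z * y' * z⁻¹ * z = z * y' := by group
          rw [this, ← lc_lc]
          have h4 : CS (lc y' B') z := hDz.mono (fun x hx => hRQ.le (hyB' hx))
          exact h4.inv (StpS_inv W V (S : Subgroup G))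
        have h5 := h2.trans h3
        have e : z⁻¹ * (z * y' * z⁻¹ * z) = y' := by group
        rwa [e] at h5
    · have hVV : V (S : Subgroup G) ≤ V R := hVmono _ R hSp hRp hSne hR0 hZR
      exact CC.single (Or.inr (Subgroup.centralizer_le hVV hy')) (fun x hx => hRS (hB' hx))
        (fun x hx => hRS (hyB' hx))
  have stepD : ∀ n, StepC n → StepD (n + 1) → StepD n := by
    intro n hC hD Q hQ hn g hg
    obtain ⟨z, hz1, hzfn, hz2⟩ := exists_fully_normalized S Q hQ
    set U : Subgroup G := cj z Q with hU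
    have hE : ∀ (Q₁ : Subgroup G), Q₁ ≤ (S : Subgroup G) → n ≤ Nat.card Q₁ → ∀ z₁ : G,
        cj z₁ Q₁ = U → cj z₁ ((S : Subgroup G) ⊓ N(Q₁)) ≤ (S : Subgroup G) → CS (Q₁ : Set G) z₁ := by
      intro Q₁ hQ₁ hn₁ z₁ he₁ hs₁
      rcases eq_or_lt_of_le hQ₁ with he | hlt
      · have h1 : cj z₁ Q₁ = Q₁ := by
          have h2 : Q₁ ≤ (S : Subgroup G) ⊓ N(Q₁) := le_inf hQ₁ Subgroup.le_normalizer
          exact Subgroup.eq_of_le_of_card_ge ((cj_mono z₁ h2).trans (hs₁.trans he.ge)) (by rw [card_cj])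
        have h2 : z₁ ∈ N(W Q₁) :=
          inf_normalizer_le_normalizer_functor hW (hSp.to_le hQ₁) (mem_normalizer_iff_cj.2 h1)
        rw [he] at h2
        refine CC.single (Or.inl h2) (fun x hx => hQ₁ hx) ?_
        rw [lc_coe_subgroup, h1]
        exact fun x hx => hQ₁ hx
      · have h1 := lt_inf_normalizer (p := p) hSp hlt
        have h2 := card_lt_of_lt h1
        have h3 := hD _ inf_le_left (by omega) z₁ hs₁
        exact h3.mono (fun x hx => h1.le hx)
    have hcU : n ≤ Nat.card U := by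
      rw [hU, card_cj]
      exact hn
    have hUN : U ≤ (S : Subgroup G) ⊓ N(U) := le_inf hz1 Subgroup.le_normalizer
    have hUk : ∀ k ∈ N(U), CS (U : Set G) k := by
      intro k hk
      have hkU : cj k U = U := mem_normalizer_iff_cj.1 hk
      by_cases hZU : Zs ≤ U
      · refine hC U hz1 1 (by rw [cj_one]; exact hZU) (by rw [cj_one]; exact hz1) hzfn ?_ k hk _
          (fun x hx => hUN hx) ?_
        · exact hcU.trans (Subgroup.card_le_of_le hUN)
        · rw [lc_coe_subgroup, hkU]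
          exact fun x hx => hUN hx
      · have hU₁S : U ⊔ Zs ≤ (S : Subgroup G) := sup_le hz1 inf_le_left
        have hlt : U < U ⊔ Zs := lt_of_le_of_ne le_sup_left (fun h => hZU (by
          rw [h]
          exact le_sup_right))
        have hZC : Zs ≤ C(U) := by
          intro x hx
          rw [Subgroup.mem_centralizer_iff]
          intro t ht
          exact Subgroup.mem_centralizer_iff.1 (Subgroup.mem_inf.1 hx).2 t (hz1 ht)
        have hCs : ¬ p ∣ ((S : Subgroup G) ⊓ C(U)).relIndex C(U) := by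
          have h1 := not_dvd_inf_relIndex (cent_le_norm U) (fun x hx => normalizes_centralizer hx)
            (inf_le_right : (S : Subgroup G) ⊓ N(U) ≤ N(U)) hzfn
          rwa [inf_assoc, inf_eq_right.2 (cent_le_norm U)] at h1
        have hZkC : cj k Zs ≤ C(U) := by
          have h1 := cj_mono k hZC
          rwa [cj_centralizer, hkU] at h1
        have hZp : IsPGroup p Zs := hSp.to_le inf_le_left
        obtain ⟨c, hc, hcZ⟩ : ∃ c ∈ C(U), cj c (cj k Zs) ≤ (S : Subgroup G) ⊓ C(U) :=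
          exists_conj_le_of_sylowIn _ _ _ inf_le_right (hSp.to_le inf_le_left) hCs hZkC (isPGroup_cj hZp k)
        have hcU' : cj c U = U := mem_normalizer_iff_cj.1 (cent_le_norm U hc)
        have hk'U : cj (c * k) U = U := by
          rw [← cj_cj, hkU, hcU']
        have hk'U₁ : cj (c * k) (U ⊔ Zs) ≤ (S : Subgroup G) := by
          have e : cj (c * k) (U ⊔ Zs) = cj (c * k) U ⊔ cj (c * k) Zs := Subgroup.map_sup _ _ _
          rw [e, hk'U, ← cj_cj]
          exact sup_le hz1 (hcZ.trans inf_le_left)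
        have h1 := hD _ hU₁S (by
          have := card_lt_of_lt hlt
          omega) (c * k) hk'U₁
        have h2 : CS (U : Set G) (c * k) := h1.mono (fun x hx => (le_sup_left : U ≤ U ⊔ Zs) hx)
        refine h2.congr (fun x hx => hz1 hx) ?_ ?_
        · intro a ha
          have h3 : k * a * k⁻¹ ∈ U := (Subgroup.mem_normalizer_iff.1 hk a).1 ha
          have h4 := Subgroup.mem_centralizer_iff.1 hc _ h3
          calc c * k * a * (c * k)⁻¹ = c * (k * a * k⁻¹) * c⁻¹ := by group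
            _ = (k * a * k⁻¹) * c * c⁻¹ := by rw [← h4]
            _ = _ := by group
        · rw [lc_coe_subgroup, hk'U]
          exact fun x hx => hz1 hx
    have h1 : CS (Q : Set G) z := hE Q hQ hn z rfl hz2
    -- the same for `cj g Q`
    have hQ'p : IsPGroup p (cj (z * g⁻¹) ((S : Subgroup G) ⊓ N(cj g Q))) :=
      isPGroup_cj (hSp.to_le inf_le_left) _
    have hzcj : cj (z * g⁻¹) (cj g Q) = U := by
      rw [cj_cj, hU]
      congr 1
      group
    have hQ'N : cj (z * g⁻¹) ((S : Subgroup G) ⊓ N(cj g Q)) ≤ N(U) := by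
      have h3 := cj_mono (z * g⁻¹) (inf_le_right : (S : Subgroup G) ⊓ N(cj g Q) ≤ _)
      rwa [cj_normalizer, hzcj] at h3
    obtain ⟨k, hk, hkQ⟩ : ∃ k ∈ N(U), cj k (cj (z * g⁻¹) ((S : Subgroup G) ⊓ N(cj g Q))) ≤
        (S : Subgroup G) ⊓ N(U) :=
      exists_conj_le_of_sylowIn _ _ _ inf_le_right (hSp.to_le inf_le_left) hzfn hQ'N hQ'p
    have hkU : cj k U = U := mem_normalizer_iff_cj.1 hk
    have hae : cj (k * (z * g⁻¹)) (cj g Q) = U := by
      rw [← cj_cj, hzcj, hkU]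
    have h2 : CS ((cj g Q : Subgroup G) : Set G) (k * (z * g⁻¹)) := by
      refine hE _ hg (by rw [card_cj]; exact hn) _ hae ?_
      rw [← cj_cj]
      exact hkQ.trans inf_le_left
    set a : G := k * (z * g⁻¹) with ha
    have hy : a * g * z⁻¹ ∈ N(U) := by
      have e : a * g * z⁻¹ = k := by
        rw [ha]
        group
      rw [e]
      exact hk
    have h3 : CS (U : Set G) (a * g * z⁻¹) := hUk _ hy
    have h4 : CS (Q : Set G) (a * g * z⁻¹ * z) := by
      refine h1.trans ?_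
      rw [lc_coe_subgroup]
      exact h3
    have h5 : CS (lc (a * g * z⁻¹ * z) (Q : Set G)) a⁻¹ := by
      have e : a * g * z⁻¹ * z = a * g := by group
      rw [e, ← lc_lc, lc_coe_subgroup g Q]
      exact h2.inv (StpS_inv W V (S : Subgroup G))
    have h6 := h4.trans h5
    have e : a⁻¹ * (a * g * z⁻¹ * z) = g := by group
    rwa [e] at h6
  have key : ∀ k n : ℕ, n + k = Nat.card (S : Subgroup G) + 1 → StepC n ∧ StepD n := by
    intro k
    induction k with
    | zero =>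
      intro n hn
      constructor
      · intro T _ g _ _ _ hn1
        have := hcS _ (inf_le_left : (S : Subgroup G) ⊓ N(T) ≤ S)
        omega
      · intro Q hQ hn1
        have := hcS _ hQ
        omega
    | succ k ih =>
      intro n hn
      obtain ⟨h1, h2⟩ := ih (n + 1) (by omega)
      have h3 := stepC n h1 h2
      exact ⟨h3, stepD n h3 h2⟩
  intro Q hQ g hg
  exact (key (Nat.card (S : Subgroup G) + 1) 0 (by omega)).2 Q hQ (Nat.zero_le _) g hg

/-- S2002 -/
theorem s2002 (hdiv : p ∣ Nat.card G) (P : Sylow p G) (W V : Subgroup G → Subgroup G)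
    (hW : IsConjugacyFunctor p W) (hV : IsConjugacyFunctor p V)
    (hWZ : ∀ H : Subgroup G, IsPGroup p ↥H → H ⊓ C(H) ≤ W H)
    (hVmono : ∀ H K : Subgroup G, IsPGroup p ↥H → IsPGroup p ↥K → H ≠ ⊥ → K ≠ ⊥ →
      H ⊓ C(H) ≤ K ⊓ C(K) → V H ≤ V K)
    (hloc : ∀ H : Subgroup G, (P : Subgroup G) ⊓ C((P : Subgroup G)) ≤ H → H ≤ (P : Subgroup G) →
      ∃ Q : Subgroup G, Q ≤ N(H) ∧ IsPGroup p ↥Q ∧ ¬ p ∣ (Q).relIndex N(H) ∧
      ∀ (X : Set G) (a : G), X ⊆ Q → a ∈ N(H) → (fun x => a⁻¹ * x * a) '' X ⊆ Q →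
        ∃ c ∈ N(H) ⊓ Subgroup.centralizer X, ∃ (n : ℕ) (b : Fin n → G),
          (∀ i, b i ∈ N(H) ⊓ N(W Q) ∨ b i ∈ N(H) ⊓ C(V Q)) ∧ a = c * (List.ofFn b).prod ∧
          ∀ k : ℕ, k ≤ n → (fun x => (((List.ofFn b).take k).prod)⁻¹ * x * ((List.ofFn b).take k).prod) ''
            ((fun x => c⁻¹ * x * c) '' X) ⊆ Q) :
    ∃ Q : Subgroup G, IsPGroup p ↥Q ∧ ¬ p ∣ Q.index ∧ ∀ (X : Set G) (a : G), X ⊆ Q →
      (fun x => a⁻¹ * x * a) '' X ⊆ Q → ∃ c ∈ Subgroup.centralizer X, ∃ (n : ℕ) (b : Fin n → G),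
        (∀ i, b i ∈ ⊤ ⊓ N(W Q) ∨ b i ∈ ⊤ ⊓ C(V Q)) ∧ a = c * (List.ofFn b).prod ∧
        ∀ k : ℕ, k ≤ n → (fun x => (((List.ofFn b).take k).prod)⁻¹ * x * ((List.ofFn b).take k).prod) ''
          ((fun x => c⁻¹ * x * c) '' X) ⊆ Q := by
  have hSne : (P : Subgroup G) ≠ ⊥ := by
    intro hb
    have h1 : p ∣ Nat.card (P : Subgroup G) := P.dvd_card_of_dvd_card hdiv
    rw [hb] at h1
    simp at h1
    exact (Fact.out : p.Prime).one_lt.ne' h1
  have hcc := cc_of_local hW hV P hSne hWZ hVmono (fun T hTS g hg1 hg2 hfn y hy B hB hyB =>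
    ctl_of_local hW hV P rfl hfn (hloc (cj g T) hg1 hg2) y hy B hB hyB)
  refine ⟨P, P.isPGroup', P.not_dvd_index, ?_⟩
  intro X a hX hXa
  have hcl : Subgroup.closure X ≤ (P : Subgroup G) := (Subgroup.closure_le _).2 hX
  have hcl2 : cj a⁻¹ (Subgroup.closure X) ≤ (P : Subgroup G) := by
    rw [Subgroup.map_le_iff_le_comap, Subgroup.closure_le]
    intro x hx
    have := hXa ⟨x, hx, rfl⟩
    simpa using this
  have h1 := (hcc _ hcl a⁻¹ hcl2).mono Subgroup.subset_closure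
  obtain ⟨n, b, hb, hb1, hb2⟩ := exists_list_of_cc (StpS_inv W V (P : Subgroup G)) hX h1
  have hc : a * ((List.ofFn b).prod)⁻¹ ∈ Subgroup.centralizer X := by
    rw [Subgroup.mem_centralizer_iff]
    intro x hx
    have h2 := hb1 x hx
    simp only [inv_inv] at h2
    calc x * (a * ((List.ofFn b).prod)⁻¹) = a * (a⁻¹ * x * a) * ((List.ofFn b).prod)⁻¹ := by group
      _ = a * (((List.ofFn b).prod)⁻¹ * x * (List.ofFn b).prod) * ((List.ofFn b).prod)⁻¹ := by rw [h2]
      _ = _ := by group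
  refine ⟨_, hc, n, b, ?_, by group, ?_⟩
  · intro i
    rcases hb i with h2 | h2
    · exact Or.inl (Subgroup.mem_inf.2 ⟨Subgroup.mem_top _, h2⟩)
    · exact Or.inr (Subgroup.mem_inf.2 ⟨Subgroup.mem_top _, h2⟩)
  · intro k hk
    rintro _ ⟨_, ⟨x, hx, rfl⟩, rfl⟩
    have h2 := Subgroup.mem_centralizer_iff.1 hc x hx
    have e : (a * ((List.ofFn b).prod)⁻¹)⁻¹ * x * (a * ((List.ofFn b).prod)⁻¹) = x := by
      rw [mul_assoc, h2]
      group
    simp only
    rw [e]
    exact hb2 k hk ⟨x, hx, rfl⟩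

end Main

end Cfsg.Agent.Lib.StrongSec.PairCtl
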