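import Cfsg.Agent.Lib.Core.PSolvable

/-!
# Pairs of `p`-elements generating a `p`-solvable subgroup with abelian Sylow subgroups
-/

set_option autoImplicit false
set_option linter.unusedSectionVars false

namespace Cfsg.Agent.Lib.StrongSec.PairSolv

open Cfsg Subgroup Cfsg.Agent.Lib.Core.Basic Cfsg.Agent.Lib.Core.PSolvable

variable {H : Type*} [Group H] [Finite H] {p : ℕ} [Fact p.Prime]

/-- `H / O_{p'}(H)` is a `p`-group, when `H` is `p`-solvable with abelian Sylow `p`-subgroups and
generated by `p`-elements. -/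
theorem isPGroup_quot (hS : IsPSolvable p H)
    (hab : ∀ T : Subgroup H, IsPGroup p T → ∀ a ∈ T, ∀ b ∈ T, a * b = b * a)
    (hgen : closure {h : H | ∃ k : ℕ, h ^ p ^ k = 1} = ⊤) :
    IsPGroup p (H ⧸ pPrimeCore p H) := by
  classical
  set K := pPrimeCore p H with hK
  have hKn : K.Normal := inferInstance
  let f : H →* H ⧸ K := QuotientGroup.mk' K
  have hf : Function.Surjective f := QuotientGroup.mk'_surjective K
  have hS' : IsPSolvable p (H ⧸ K) := isPSolvable_of_surjective f hf hS
  have hcore : pPrimeCore p (H ⧸ K) = ⊥ := pPrimeCore_quotient_eq_bot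
  have hC := centralizer_pCore_le_of_isPSolvable hS' hcore
  set O := pCore p (H ⧸ K) with hO
  have hmem : ∀ h : H, (∃ k : ℕ, h ^ p ^ k = 1) → f h ∈ O := by
    intro h hh
    have hz : IsPGroup p (zpowers h) := by
      obtain ⟨k, hk⟩ := hh
      rintro ⟨_, j, rfl⟩
      refine ⟨k, Subtype.ext ?_⟩
      change (h ^ j) ^ p ^ k = 1
      rw [← zpow_natCast, zpow_comm, zpow_natCast, hk, one_zpow]
    obtain ⟨S, hSz⟩ := hz.exists_le_sylow
    have hhS : h ∈ (S : Subgroup H) := hSz (mem_zpowers h)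
    let S' : Sylow p (H ⧸ K) := S.mapSurjective hf
    have hOS : O ≤ (S' : Subgroup (H ⧸ K)) := pCore_le_sylow S'
    apply hC
    rw [mem_centralizer_iff]
    intro o ho
    have ho' : o ∈ (S' : Subgroup (H ⧸ K)) := hOS ho
    obtain ⟨s, hs, rfl⟩ := ho'
    rw [← map_mul, ← map_mul, hab _ S.isPGroup' s hs h hhS]
  have htop : O = ⊤ := by
    rw [eq_top_iff]
    intro q _
    obtain ⟨h, rfl⟩ := hf q
    have hle : closure {h : H | ∃ k : ℕ, h ^ p ^ k = 1} ≤ O.comap f := by
      rw [closure_le]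
      intro a ha
      exact hmem a ha
    rw [hgen] at hle
    exact hle (mem_top h)
  exact pCore_eq_top_iff.1 htop

/-- A `p`-regular element lies in `O_{p'}(H)` when the quotient is a `p`-group. -/
theorem mem_core_of_regular (hP : IsPGroup p (H ⧸ pPrimeCore p H)) {h : H}
    (hh : ¬ p ∣ orderOf h) : h ∈ pPrimeCore p H := by
  classical
  have hpp : p.Prime := Fact.out
  obtain ⟨k, hk⟩ := hP (QuotientGroup.mk h)
  have h1 : ((QuotientGroup.mk h : H ⧸ pPrimeCore p H)) ^ orderOf h = 1 := by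
    rw [← QuotientGroup.mk_pow, pow_orderOf_eq_one, QuotientGroup.mk_one]
  have hc : Nat.Coprime (p ^ k) (orderOf h) :=
    Nat.Coprime.pow_left _ ((Nat.Prime.coprime_iff_not_dvd hpp).2 hh)
  have h2 := orderOf_dvd_of_pow_eq_one hk
  have h3 := orderOf_dvd_of_pow_eq_one h1
  have h4 : orderOf (QuotientGroup.mk h : H ⧸ pPrimeCore p H) ∣ 1 := by
    rw [← hc.gcd_eq_one]
    exact Nat.dvd_gcd h2 h3
  have h5 : (QuotientGroup.mk h : H ⧸ pPrimeCore p H) = 1 :=
    orderOf_eq_one_iff.1 (Nat.dvd_one.1 h4)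
  exact (QuotientGroup.eq_one_iff h).1 h5

variable {G : Type*} [Group G] [Finite G]

/-- The core of the `p`-solvable subgroup generated by two elements of order `p` contains
all the `p`-regular elements. -/
theorem regular_mem_core {x y : G} (hx : x ^ p = 1) (hy : y ^ p = 1)
    (hS : IsPSolvable p ↥(closure ({x, y} : Set G)))
    (hab : ∀ T : Subgroup G, IsPGroup p T → ∀ a ∈ T, ∀ b ∈ T, a * b = b * a)
    (h : ↥(closure ({x, y} : Set G))) (hh : ¬ p ∣ orderOf h) :
    h ∈ pPrimeCore p ↥(closure ({x, y} : Set G)) := by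
  classical
  set L := closure ({x, y} : Set G) with hL
  apply mem_core_of_regular _ hh
  apply isPGroup_quot hS
  · intro T hT a ha b hb
    have hT' : IsPGroup p (T.map L.subtype) := hT.map _
    apply Subtype.ext
    exact hab _ hT' _ ⟨a, ha, rfl⟩ _ ⟨b, hb, rfl⟩
  · have hx' : x ∈ L := subset_closure (by simp)
    have hy' : y ∈ L := subset_closure (by simp)
    have h1 : closure (((↑) : L → G) ⁻¹' ({x, y} : Set G)) = ⊤ := closure_closure_coe_preimage
    rw [eq_top_iff, ← h1]
    apply Subgroup.closure_mono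
    intro a ha
    rcases ha with ha | ha
    · refine ⟨1, ?_⟩
      apply Subtype.ext
      simp only [pow_one]
      rw [Subgroup.coe_pow]
      rw [ha]
      exact hx
    · refine ⟨1, ?_⟩
      apply Subtype.ext
      simp only [pow_one]
      rw [Subgroup.coe_pow]
      have ha' : (a : G) = y := ha
      rw [ha']
      exact hy

/-- Two elements of order `p` (`p` odd) such that `x⁻¹ y` and `x y` are both `p`-regular do not
generate a `p`-solvable subgroup with abelian Sylow subgroups. -/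
theorem not_both_regular {x y : G} (hp2 : p ≠ 2) (hx : orderOf x = p) (hy : y ^ p = 1)
    (hS : IsPSolvable p ↥(closure ({x, y} : Set G)))
    (hab : ∀ T : Subgroup G, IsPGroup p T → ∀ a ∈ T, ∀ b ∈ T, a * b = b * a)
    (h1 : ¬ p ∣ orderOf (x⁻¹ * y)) (h2 : ¬ p ∣ orderOf (x * y)) : False := by
  classical
  have hpp : p.Prime := Fact.out
  have hxp : x ^ p = 1 := by
    rw [← hx]
    exact pow_orderOf_eq_one x
  set L := closure ({x, y} : Set G) with hL
  have hx' : x ∈ L := subset_closure (by simp)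
  have hy' : y ∈ L := subset_closure (by simp)
  let a : L := ⟨x, hx'⟩
  let b : L := ⟨y, hy'⟩
  have h3 : a⁻¹ * b ∈ pPrimeCore p L := regular_mem_core hxp hy hS hab _ (by
    rw [← Subgroup.orderOf_coe]
    exact h1)
  have h4 : a * b ∈ pPrimeCore p L := regular_mem_core hxp hy hS hab _ (by
    rw [← Subgroup.orderOf_coe]
    exact h2)
  have h5 : a * b * (a⁻¹ * b)⁻¹ ∈ pPrimeCore p L := mul_mem h4 (inv_mem h3)
  have e : a * b * (a⁻¹ * b)⁻¹ = a ^ 2 := by
    rw [sq]
    group
  rw [e] at h5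
  have hodd : Odd p := hpp.odd_of_ne_two hp2
  obtain ⟨m, hm⟩ := hodd
  have hap : a ^ p = 1 := by
    apply Subtype.ext
    exact hxp
  have h6 : (a ^ 2) ^ (m + 1) = a := by
    rw [← pow_mul]
    have e2 : 2 * (m + 1) = p + 1 := by omega
    rw [e2, pow_succ, hap, one_mul]
  have h7 : a ∈ pPrimeCore p L := by
    rw [← h6]
    exact pow_mem h5 _
  have h8 := orderOf_coprime_of_mem_pPrimeCore h7
  have h9 : orderOf a = p := by
    rw [← Subgroup.orderOf_coe]
    exact hx
  rw [h9] at h8
  exact hpp.one_lt.ne' (by simpa using h8)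

end Cfsg.Agent.Lib.StrongSec.PairSolv
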