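import Cfsg.Agent.Lib.StrongSec.PairCtl
import Cfsg.Agent.Lib.TransferCtl.LocalGlobal

/-!
# Local-to-global for a conjugacy functor with a central functor: transfer
-/

set_option autoImplicit false
set_option linter.unusedSectionVars false

namespace Cfsg.Agent.Lib.StrongSec.PairTransfer

open Cfsg Cfsg.Agent.Lib.PLocal.Alperin Cfsg.Agent.Lib.ConjFam.Basic
  Cfsg.Agent.Lib.ConjFam.WellPlaced Cfsg.Agent.Lib.StrongSec.MinFail
  Cfsg.Agent.Lib.TransferCtl.Reduce Cfsg.Agent.Lib.StrongSec.NormalCtl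
  Cfsg.Agent.Lib.ConjFam.StrongCtl Cfsg.Agent.Lib.StrongSec.Basic
  Cfsg.Agent.Lib.StrongSec.PairCtl Cfsg.Agent.Lib.TransferCtl.LocalGlobal

local notation "N(" T ")" => Subgroup.normalizer (SetLike.coe (T : Subgroup _))
local notation "C(" T ")" => Subgroup.centralizer (SetLike.coe (T : Subgroup _))

variable {G : Type*} [Group G] [Finite G] {p : ℕ} [Fact p.Prime]

/-- The local hypothesis, transported to the fully normalized conjugate. -/
theorem le_of_local {W V : Subgroup G → Subgroup G} (hW : IsConjugacyFunctor p W)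
    (hV : IsConjugacyFunctor p V) (S : Sylow p G) {T H Y : Subgroup G} {g : G} (hTH : cj g T = H)
    (hfn : ¬ p ∣ ((S : Subgroup G) ⊓ N(T)).relIndex N(T))
    (hloc : ∃ Q : Subgroup G, Q ≤ N(H) ∧ IsPGroup p ↥Q ∧ ¬ p ∣ (Q).relIndex N(H) ∧
      ∀ x : G, x ∈ Q ⊓ ⁅N(H), N(H)⁆ ↔ ∃ a ∈ Q ⊓ ⁅N(H) ⊓ N(W Q), N(H) ⊓ N(W Q)⁆,
        ∃ b ∈ Q ⊓ ⁅N(H) ⊓ C(V Q), N(H) ⊓ C(V Q)⁆, x = a * b)
    (h1 : ((S : Subgroup G) ⊓ N(T)) ⊓ ⁅N(T) ⊓ N(W ((S : Subgroup G) ⊓ N(T))),
      N(T) ⊓ N(W ((S : Subgroup G) ⊓ N(T)))⁆ ≤ Y)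
    (h2 : ((S : Subgroup G) ⊓ N(T)) ⊓ ⁅N(T) ⊓ C(V ((S : Subgroup G) ⊓ N(T))),
      N(T) ⊓ C(V ((S : Subgroup G) ⊓ N(T)))⁆ ≤ Y) :
    ((S : Subgroup G) ⊓ N(T)) ⊓ ⁅N(T), N(T)⁆ ≤ Y := by
  classical
  obtain ⟨Q₀, hQ₀N, hQ₀p, hQ₀s, hctl⟩ := hloc
  set R : Subgroup G := (S : Subgroup G) ⊓ N(T) with hR
  have hRp : IsPGroup p R := S.isPGroup'.to_le inf_le_left
  have hNH : cj g N(T) = N(H) := by
    rw [← hTH]
    exact cj_normalizer g T
  have hRN : cj g R ≤ N(H) := by
    rw [← hNH]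
    exact cj_mono g inf_le_right
  obtain ⟨x, hx, hxR⟩ : ∃ x ∈ N(H), cj x (cj g R) ≤ Q₀ :=
    exists_conj_le_of_sylowIn _ _ _ hQ₀N hQ₀p hQ₀s hRN (isPGroup_cj hRp g)
  have hxH : cj x H = H := mem_normalizer_iff_cj.1 hx
  have hxN : cj x N(H) = N(H) := by
    have := cj_normalizer x H
    rw [hxH] at this
    exact this
  set h : G := x * g with hh
  have hcjT : cj h T = H := by
    rw [hh, ← cj_cj, hTH, hxH]
  have hcjN : cj h N(T) = N(H) := by
    rw [hh, ← cj_cj, hNH, hxN]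
  have hRs : ¬ p ∣ (cj h R).relIndex N(H) := by
    rw [← hcjN, Subgroup.relIndex_map_map_of_injective _ _ (MulEquiv.injective _)]
    exact hfn
  have hcjR : cj h R = Q₀ := by
    have hle : cj h R ≤ Q₀ := by
      rw [hh, ← cj_cj]
      exact hxR
    exact eq_of_not_dvd_relIndex hle hQ₀N hQ₀p hRs
  have hWQ : W Q₀ = cj h (W R) := by
    rw [← hcjR]
    exact (hW R hRp).2.2 h
  have hVQ : V Q₀ = cj h (V R) := by
    rw [← hcjR]
    exact (hV R hRp).2.2 h
  have e1 : Q₀ ⊓ ⁅N(H), N(H)⁆ = cj h (R ⊓ ⁅N(T), N(T)⁆) := by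
    rw [cj_inf h R, cj_commutator, hcjR, hcjN]
  have e2 : Q₀ ⊓ ⁅N(H) ⊓ N(W Q₀), N(H) ⊓ N(W Q₀)⁆ =
      cj h (R ⊓ ⁅N(T) ⊓ N(W R), N(T) ⊓ N(W R)⁆) := by
    have hNW : cj h N(W R) = N(W Q₀) := by
      rw [hWQ]
      exact cj_normalizer h (W R)
    rw [cj_inf h R, cj_commutator, cj_inf h N(T), hcjR, hcjN, hNW]
  have e3 : Q₀ ⊓ ⁅N(H) ⊓ C(V Q₀), N(H) ⊓ C(V Q₀)⁆ =
      cj h (R ⊓ ⁅N(T) ⊓ C(V R), N(T) ⊓ C(V R)⁆) := by
    have hCV : cj h C(V R) = C(V Q₀) := by
      rw [hVQ]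
      exact cj_centralizer h (V R)
    rw [cj_inf h R, cj_commutator, cj_inf h N(T), hcjR, hcjN, hCV]
  intro z hz
  have hz1 : h * z * h⁻¹ ∈ Q₀ ⊓ ⁅N(H), N(H)⁆ := by
    rw [e1]
    exact conj_mem_cj hz
  obtain ⟨a, ha, b, hb, hab⟩ := (hctl _).1 hz1
  rw [e2] at ha
  rw [e3] at hb
  obtain ⟨a', ha', rfl⟩ := ha
  obtain ⟨b', hb', rfl⟩ := hb
  have hz2 : z = a' * b' := by
    have h3 : h * z * h⁻¹ = h * (a' * b') * h⁻¹ := by
      rw [hab]
      simp only [MulEquiv.coe_toMonoidHom, MulAut.conj_apply]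
      group
    have h4 := mul_right_cancel h3
    exact mul_left_cancel h4
  rw [hz2]
  exact Y.mul_mem (h1 ha') (h2 hb')

/-- S2001 -/
theorem s2001 (hdiv : p ∣ Nat.card G) (P : Sylow p G) (W V : Subgroup G → Subgroup G)
    (hW : IsConjugacyFunctor p W) (hV : IsConjugacyFunctor p V)
    (hWZ : ∀ H : Subgroup G, IsPGroup p ↥H → H ⊓ C(H) ≤ W H)
    (hVmono : ∀ H K : Subgroup G, IsPGroup p ↥H → IsPGroup p ↥K → H ≠ ⊥ → K ≠ ⊥ →
      H ⊓ C(H) ≤ K ⊓ C(K) → V H ≤ V K)
    (hloc : ∀ H : Subgroup G, (P : Subgroup G) ⊓ C((P : Subgroup G)) ≤ H → H ≤ (P : Subgroup G) →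
      ∃ Q : Subgroup G, Q ≤ N(H) ∧ IsPGroup p ↥Q ∧ ¬ p ∣ (Q).relIndex N(H) ∧
      ∀ x : G, x ∈ Q ⊓ ⁅N(H), N(H)⁆ ↔ ∃ a ∈ Q ⊓ ⁅N(H) ⊓ N(W Q), N(H) ⊓ N(W Q)⁆,
        ∃ b ∈ Q ⊓ ⁅N(H) ⊓ C(V Q), N(H) ⊓ C(V Q)⁆, x = a * b) :
    ∃ Q : Subgroup G, IsPGroup p ↥Q ∧ ¬ p ∣ Q.index ∧ ∀ x : G, x ∈ Q ⊓ commutator G ↔
      ∃ a ∈ Q ⊓ ⁅N(W Q), N(W Q)⁆, ∃ b ∈ Q ⊓ ⁅C(V Q), C(V Q)⁆, x = a * b := by
  classical
  have hSne : (P : Subgroup G) ≠ ⊥ := by
    intro hb
    have h1 : p ∣ Nat.card (P : Subgroup G) := P.dvd_card_of_dvd_card hdiv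
    rw [hb] at h1
    simp at h1
    exact (Fact.out : p.Prime).one_lt.ne' h1
  set S : Sylow p G := P with hSdef
  have hSp : IsPGroup p (S : Subgroup G) := S.isPGroup'
  set Zs : Subgroup G := (S : Subgroup G) ⊓ C((S : Subgroup G)) with hZs
  have hZne : Zs ≠ ⊥ := zs_ne_bot S hSne
  have hcS : ∀ B : Subgroup G, B ≤ (S : Subgroup G) → Nat.card B ≤ Nat.card (S : Subgroup G) :=
    fun B hB => Subgroup.card_le_of_le hB
  set D₁ : Subgroup G := (S : Subgroup G) ⊓ ⁅N(W (S : Subgroup G)), N(W (S : Subgroup G))⁆ with hD₁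
  set D₂ : Subgroup G := (S : Subgroup G) ⊓ ⁅C(V (S : Subgroup G)), C(V (S : Subgroup G))⁆ with hD₂
  set Φ : Subgroup G := D₁ ⊔ D₂ with hΦ
  have hSW : (S : Subgroup G) ≤ N(W (S : Subgroup G)) := functor_le_normalizer hW hSp
  have hSD₁ : (S : Subgroup G) ≤ N(D₁) := by
    intro s hs
    refine normalizes_inf (Subgroup.le_normalizer hs) ?_
    rw [mem_normalizer_iff_cj, cj_commutator, cj_eq_self (hSW hs)]
  have hZN : ∀ T : Subgroup G, T ≤ (S : Subgroup G) → Zs ≤ (S : Subgroup G) ⊓ N(T) := by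
    intro T hT x hx
    have hx' := Subgroup.mem_inf.1 hx
    refine Subgroup.mem_inf.2 ⟨hx'.1, cent_le_norm T ?_⟩
    rw [Subgroup.mem_centralizer_iff]
    intro t ht
    exact Subgroup.mem_centralizer_iff.1 hx'.2 t (hT ht)
  let StepI : ℕ → Prop := fun n => ∀ T : Subgroup G, T ≤ (S : Subgroup G) → ∀ g : G, Zs ≤ cj g T →
    cj g T ≤ (S : Subgroup G) → ¬ p ∣ ((S : Subgroup G) ⊓ N(T)).relIndex N(T) →
    n ≤ Nat.card ((S : Subgroup G) ⊓ N(T) : Subgroup G) →
    ∀ s ∈ (S : Subgroup G) ⊓ N(T), ∀ y ∈ N(T), y * s * y⁻¹ ∈ (S : Subgroup G) ⊓ N(T) →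
      y * s * y⁻¹ * s⁻¹ ∈ Φ
  let StepII : ℕ → Prop := fun n => ∀ (A : Subgroup G) (x : G), A ≤ (S : Subgroup G) →
    cj x A ≤ (S : Subgroup G) → n ≤ Nat.card A → ∀ a ∈ A, x * a * x⁻¹ * a⁻¹ ∈ Φ
  have stepI : ∀ n, StepI (n + 1) → StepII (n + 1) → StepI n := by
    intro n hI hII T hTS g hg1 hg2 hfn hn s hs y hy hys
    set R : Subgroup G := (S : Subgroup G) ⊓ N(T) with hR
    have hRS : R ≤ (S : Subgroup G) := inf_le_left
    have hRp : IsPGroup p R := hSp.to_le hRS
    have hRN : R ≤ N(T) := inf_le_right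
    have hZR : Zs ≤ R ⊓ C(R) := by
      refine le_inf (hZN T hTS) ?_
      intro x hx
      rw [Subgroup.mem_centralizer_iff]
      intro t ht
      exact Subgroup.mem_centralizer_iff.1 (Subgroup.mem_inf.1 hx).2 t (hRS ht)
    have hR0 : R ≠ ⊥ := by
      intro h0
      apply hZne
      rw [eq_bot_iff]
      exact (hZR.trans inf_le_left).trans (le_of_eq h0)
    have hle := le_of_local (Y := Φ) hW hV S (g := g) rfl hfn (hloc (cj g T) hg1 hg2) ?_ ?_
    · exact hle ⟨R.mul_mem hys (R.inv_mem hs), Subgroup.commutator_mem_commutator hy (hRN hs)⟩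
    · -- the normalizer of `W R`
      have hWf := hW
      set E : Subgroup G := N(T) ⊓ N(W R) with hE
      have hPE : R ≤ E := le_inf hRN (functor_le_normalizer hWf hRp)
      have hEN : E ≤ N(T) := inf_le_left
      have hidx : ¬ p ∣ R.relIndex E := by
        intro hd
        apply hfn
        rw [← Subgroup.relIndex_mul_relIndex _ _ _ hPE hEN]
        exact hd.trans (dvd_mul_right _ _)
      refine inf_commutator_le_of_focal hRp hidx ?_
      intro y' hy' u hu huy
      have huW : u ∈ N(W R) := (Subgroup.mem_inf.1 hu).2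
      rcases eq_or_lt_of_le hRS with hRe | hRlt
      · have hy₂ : y' ∈ (S : Subgroup G) := hRS hy'
        have hu₂ : u * y' * u⁻¹ ∈ (S : Subgroup G) := hRS huy
        have huW₂ : u ∈ N(W (S : Subgroup G)) := by
          rw [← hRe]
          exact huW
        refine (le_sup_left : D₁ ≤ Φ) (Subgroup.mem_inf.2 ⟨Subgroup.mul_mem _ hu₂ (Subgroup.inv_mem _ hy₂), ?_⟩)
        exact Subgroup.commutator_mem_commutator huW₂ (hSW hy₂)
      · have hW1R : W R ≤ R := (hWf R hRp).1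
        have hW1S : W R ≤ (S : Subgroup G) := hW1R.trans hRS
        have hZU : Zs ≤ W R := hZR.trans (hWZ R hRp)
        set C' : Subgroup G := (S : Subgroup G) ⊓ N(W R) with hC'
        have hPC : R < C' :=
          (lt_inf_normalizer (p := p) hSp hRlt).trans_le
            (inf_le_inf_left _ (inf_normalizer_le_normalizer_functor hWf hRp))
        obtain ⟨v, hv1, hv3, hvC⟩ := Cfsg.Agent.Lib.ConjFam.StrongCtl.exists_fully_normalized S (W R) hW1S
        have hCS : C' ≤ (S : Subgroup G) := inf_le_left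
        have hcardC : n + 1 ≤ Nat.card C' := by
          have := card_lt_of_lt hPC
          omega
        have hvC' : cj v C' ≤ (S : Subgroup G) ⊓ N(cj v (W R)) := by
          refine le_inf hvC ?_
          rw [← cj_normalizer]
          exact cj_mono _ inf_le_right
        have hcard2 : n + 1 ≤ Nat.card ((S : Subgroup G) ⊓ N(cj v (W R)) : Subgroup G) := by
          refine hcardC.trans ?_
          rw [← card_cj v C']
          exact Subgroup.card_le_of_le hvC'
        have hyC : y' ∈ C' := hPC.le hy'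
        have huyC : u * y' * u⁻¹ ∈ C' := hPC.le huy
        have h1 := hII C' v hCS hvC hcardC y' hyC
        have h2 := hII C' v hCS hvC hcardC _ huyC
        have he₂ : v * u * v⁻¹ ∈ N(cj v (W R)) := by
          rw [← cj_normalizer]
          exact conj_mem_cj huW
        have hy₂ : v * y' * v⁻¹ ∈ (S : Subgroup G) ⊓ N(cj v (W R)) := hvC' (conj_mem_cj hyC)
        have hy₃ : v * u * v⁻¹ * (v * y' * v⁻¹) * (v * u * v⁻¹)⁻¹ ∈ (S : Subgroup G) ⊓ N(cj v (W R)) := by
          have := hvC' (conj_mem_cj huyC)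
          convert this using 1
          group
        have h3 := hI (cj v (W R)) hv1 v⁻¹ (by
            rw [cj_cj, inv_mul_cancel, cj_one]
            exact hZU) (by
            rw [cj_cj, inv_mul_cancel, cj_one]
            exact hW1S) hv3 hcard2 _ hy₂ _ he₂ hy₃
        have hfinal : u * y' * u⁻¹ * y'⁻¹ =
            (v * (u * y' * u⁻¹) * v⁻¹ * (u * y' * u⁻¹)⁻¹)⁻¹ *
              (v * u * v⁻¹ * (v * y' * v⁻¹) * (v * u * v⁻¹)⁻¹ * (v * y' * v⁻¹)⁻¹) *
                (v * y' * v⁻¹ * y'⁻¹) := by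
          group
        rw [hfinal]
        exact Φ.mul_mem (Φ.mul_mem (Φ.inv_mem h2) h3) h1
    · -- the centralizer of `V R`
      have hVV : V (S : Subgroup G) ≤ V R := hVmono _ R hSp hRp hSne hR0 hZR
      have hCC : N(T) ⊓ C(V R) ≤ C(V (S : Subgroup G)) := inf_le_right.trans (Subgroup.centralizer_le hVV)
      intro z hz
      have hz' := Subgroup.mem_inf.1 hz
      exact (le_sup_right : D₂ ≤ Φ) (Subgroup.mem_inf.2 ⟨hRS hz'.1, Subgroup.commutator_mono hCC hCC hz'.2⟩)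
  have stepII : ∀ n, StepI n → StepII (n + 1) → StepII n := by
    intro n hI hII A x hA hxA hn a ha
    by_cases hn1 : n + 1 ≤ Nat.card A
    · exact hII A x hA hxA hn1 a ha
    have hcard : Nat.card A = n := by omega
    rcases eq_or_lt_of_le hA with hAS | hAS
    · -- `A = S`
      have hxS : cj x A = A := by
        apply Subgroup.eq_of_le_of_card_ge (hxA.trans hAS.ge)
        rw [card_cj]
      have hxN : x ∈ N(A) := mem_normalizer_iff_cj.2 hxS
      rw [hAS] at hxN ha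
      have hxW : x ∈ N(W (S : Subgroup G)) := inf_normalizer_le_normalizer_functor hW hSp hxN
      refine (le_sup_left : D₁ ≤ Φ) (Subgroup.mem_inf.2 ⟨?_, Subgroup.commutator_mem_commutator hxW (hSW ha)⟩)
      have h1 := hxA (conj_mem_cj (g := x) (hAS.ge ha))
      exact Subgroup.mul_mem _ h1 (Subgroup.inv_mem _ ha)
    · obtain ⟨z, hz1, hBi, hzC⟩ := Cfsg.Agent.Lib.ConjFam.StrongCtl.exists_fully_normalized S A hA
      set B : Subgroup G := cj z A with hB
      have hBS : B ≤ (S : Subgroup G) := hz1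
      have hBN : B ≤ (S : Subgroup G) ⊓ N(B) := le_inf hBS Subgroup.le_normalizer
      have hcardB' : Nat.card B = n := by
        rw [hB, card_cj]
        exact hcard
      have hcardB : n ≤ Nat.card ((S : Subgroup G) ⊓ N(B) : Subgroup G) := by
        rw [← hcardB']
        exact Subgroup.card_le_of_le hBN
      -- elements of the normalizer of `B`
      have hBg : ∀ k ∈ N(B), ∀ b ∈ B, k * b * k⁻¹ * b⁻¹ ∈ Φ := by
        intro k hk b hb
        have hkB : cj k B = B := mem_normalizer_iff_cj.1 hk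
        by_cases hZU : Zs ≤ B
        · refine hI B hBS 1 (by rw [cj_one]; exact hZU) (by rw [cj_one]; exact hBS) hBi hcardB b (hBN hb) k hk ?_
          exact hBN ((Subgroup.mem_normalizer_iff.1 hk b).1 hb)
        · have hU₁S : B ⊔ Zs ≤ (S : Subgroup G) := sup_le hBS inf_le_left
          have hlt : B < B ⊔ Zs := lt_of_le_of_ne le_sup_left (fun h => hZU (by
            rw [h]
            exact le_sup_right))
          have hZC : Zs ≤ C(B) := by
            intro x hx
            rw [Subgroup.mem_centralizer_iff]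
            intro t ht
            exact Subgroup.mem_centralizer_iff.1 (Subgroup.mem_inf.1 hx).2 t (hBS ht)
          have hCs : ¬ p ∣ ((S : Subgroup G) ⊓ C(B)).relIndex C(B) := by
            have h1 := not_dvd_inf_relIndex (cent_le_norm B) (fun x hx => normalizes_centralizer hx)
              (inf_le_right : (S : Subgroup G) ⊓ N(B) ≤ N(B)) hBi
            rwa [inf_assoc, inf_eq_right.2 (cent_le_norm B)] at h1
          have hZkC : cj k Zs ≤ C(B) := by
            have h1 := cj_mono k hZC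
            rwa [cj_centralizer, hkB] at h1
          have hZp : IsPGroup p Zs := hSp.to_le inf_le_left
          obtain ⟨c, hc, hcZ⟩ : ∃ c ∈ C(B), cj c (cj k Zs) ≤ (S : Subgroup G) ⊓ C(B) :=
            exists_conj_le_of_sylowIn _ _ _ inf_le_right (hSp.to_le inf_le_left) hCs hZkC (isPGroup_cj hZp k)
          have hcU' : cj c B = B := mem_normalizer_iff_cj.1 (cent_le_norm B hc)
          have hk'U : cj (c * k) B = B := by
            rw [← cj_cj, hkB, hcU']
          have hk'U₁ : cj (c * k) (B ⊔ Zs) ≤ (S : Subgroup G) := by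
            have e : cj (c * k) (B ⊔ Zs) = cj (c * k) B ⊔ cj (c * k) Zs := Subgroup.map_sup _ _ _
            rw [e, hk'U, ← cj_cj]
            exact sup_le hBS (hcZ.trans inf_le_left)
          have h1 := hII _ (c * k) hU₁S hk'U₁ (by
            have := card_lt_of_lt hlt
            omega) b ((le_sup_left : B ≤ B ⊔ Zs) hb)
          have h3 : k * b * k⁻¹ ∈ B := (Subgroup.mem_normalizer_iff.1 hk b).1 hb
          have h4 := Subgroup.mem_centralizer_iff.1 hc _ h3
          have e : c * k * b * (c * k)⁻¹ = k * b * k⁻¹ := by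
            calc c * k * b * (c * k)⁻¹ = c * (k * b * k⁻¹) * c⁻¹ := by group
              _ = (k * b * k⁻¹) * c * c⁻¹ := by rw [← h4]
              _ = _ := by group
          rw [e] at h1
          exact h1
      have hA1 : A < (S : Subgroup G) ⊓ N(A) := lt_inf_normalizer (p := p) hSp hAS
      have hA1card : n + 1 ≤ Nat.card ((S : Subgroup G) ⊓ N(A) : Subgroup G) := by
        have := card_lt_of_lt hA1
        omega
      have step1 := hII _ z inf_le_left hzC hA1card a (hA1.le ha)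
      -- second conjugate
      set A' : Subgroup G := cj x A with hA'
      have hA'card : Nat.card A' = n := by
        rw [hA', card_cj]
        exact hcard
      have hA'S : A' < (S : Subgroup G) := by
        refine lt_of_le_of_ne hxA ?_
        intro he
        have h1 := card_lt_of_lt hAS
        rw [← he, hA'card] at h1
        omega
      have hA1' : A' < (S : Subgroup G) ⊓ N(A') := lt_inf_normalizer (p := p) hSp hA'S
      have hA1'card : n + 1 ≤ Nat.card ((S : Subgroup G) ⊓ N(A') : Subgroup G) := by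
        have := card_lt_of_lt hA1'
        omega
      set z₀ := z * x⁻¹ with hz₀
      have hz₀A : cj z₀ A' = B := by
        rw [hA', cj_cj, hz₀, hB]
        congr 1
        group
      have hQN : cj z₀ ((S : Subgroup G) ⊓ N(A')) ≤ N(B) := by
        rw [← hz₀A, ← cj_normalizer z₀ A']
        exact cj_mono _ inf_le_right
      obtain ⟨h, hhN, hhQ⟩ : ∃ h ∈ N(B), cj h (cj z₀ ((S : Subgroup G) ⊓ N(A'))) ≤ (S : Subgroup G) ⊓ N(B) :=
        exists_conj_le_of_sylowIn _ _ _ inf_le_right (hSp.to_le inf_le_left) hBi hQN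
          (isPGroup_cj (hSp.to_le inf_le_left) z₀)
      set z' := h * z₀ with hz'
      have hz'S : cj z' ((S : Subgroup G) ⊓ N(A')) ≤ (S : Subgroup G) := by
        rw [hz', ← cj_cj]
        exact hhQ.trans inf_le_left
      have ha' : x * a * x⁻¹ ∈ A' := conj_mem_cj ha
      have step3 := hII _ z' inf_le_left hz'S hA1'card _ (hA1'.le ha')
      set g := z' * x * z⁻¹ with hg
      have hcjz' : cj z' A' = B := by
        rw [hz', ← cj_cj, hz₀A]
        exact mem_normalizer_iff_cj.1 hhN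
      have hgN : g ∈ N(B) := by
        rw [mem_normalizer_iff_cj, hg, hB, cj_cj]
        have : z' * x * z⁻¹ * z = z' * x := by group
        rw [this, ← cj_cj, ← hA', hcjz']
      have hb : z * a * z⁻¹ ∈ B := conj_mem_cj ha
      have hgb : g * (z * a * z⁻¹) * g⁻¹ = z' * (x * a * x⁻¹) * z'⁻¹ := by
        rw [hg]
        group
      have step2 := hBg g hgN _ hb
      have hfinal : x * a * x⁻¹ * a⁻¹ =
          (z' * (x * a * x⁻¹) * z'⁻¹ * (x * a * x⁻¹)⁻¹)⁻¹ *
            (g * (z * a * z⁻¹) * g⁻¹ * (z * a * z⁻¹)⁻¹) * (z * a * z⁻¹ * a⁻¹) := by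
        rw [hgb]
        group
      rw [hfinal]
      exact Φ.mul_mem (Φ.mul_mem (Φ.inv_mem step3) step2) step1
  have key : ∀ k n : ℕ, n + k = Nat.card (S : Subgroup G) + 1 → StepI n ∧ StepII n := by
    intro k
    induction k with
    | zero =>
      intro n hn
      constructor
      · intro T _ g _ _ _ hn1
        have := hcS _ (inf_le_left : (S : Subgroup G) ⊓ N(T) ≤ S)
        omega
      · intro A x hA _ hn1
        have := hcS _ hA
        omega
    | succ k ih =>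
      intro n hn
      obtain ⟨h1, h2⟩ := ih (n + 1) (by omega)
      have h3 := stepI n h1 h2
      exact ⟨h3, stepII n h3 h2⟩
  have hall := (key (Nat.card (S : Subgroup G) + 1) 0 (by omega)).2
  have hle : (S : Subgroup G) ⊓ commutator G ≤ Φ := by
    refine inf_commutator_le_of_focal (E := ⊤) (P := (S : Subgroup G)) (Y := Φ) hSp
      (by rw [Subgroup.relIndex_top_right]; exact S.not_dvd_index) ?_
    intro y hy u _ huy
    refine hall (Subgroup.zpowers y) u ?_ ?_ (Nat.zero_le _) y (Subgroup.mem_zpowers y)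
    · rw [Subgroup.zpowers_le]
      exact hy
    · rintro _ ⟨t, ⟨k, rfl⟩, rfl⟩
      have : (MulAut.conj u).toMonoidHom ((fun x => y ^ x) k) = (u * y * u⁻¹) ^ k := by
        simp [map_zpow]
      rw [this]
      exact Subgroup.zpow_mem _ huy k
  refine ⟨S, hSp, S.not_dvd_index, fun x => ⟨fun hx => ?_, ?_⟩⟩
  · obtain ⟨a, ha, b, hb, rfl⟩ := mem_sup_of_le_normalizer ((inf_le_left : D₂ ≤ _).trans hSD₁) (hle hx)
    exact ⟨a, ha, b, hb, rfl⟩
  · rintro ⟨a, ha, b, hb, rfl⟩
    have ha' := Subgroup.mem_inf.1 ha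
    have hb' := Subgroup.mem_inf.1 hb
    refine Subgroup.mem_inf.2 ⟨Subgroup.mul_mem _ ha'.1 hb'.1, Subgroup.mul_mem _ ?_ ?_⟩
    · exact Subgroup.commutator_mono le_top le_top ha'.2
    · exact Subgroup.commutator_mono le_top le_top hb'.2

end Cfsg.Agent.Lib.StrongSec.PairTransfer
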